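import Cfsg.Agent.H276.Co1.LinD

/-!
# S5227: lemE3
-/

set_option autoImplicit false
set_option linter.style.longLine false
set_option linter.unusedVariables false
set_option linter.unusedSectionVars false
set_option linter.unnecessarySeqFocus false
set_option linter.unusedTactic false
set_option linter.unreachableTactic false
set_option linter.unusedSimpArgs false

namespace Cfsg.Agent.H276.Co1

open Subgroup Cfsg.Agent.H776.Co P

/-- the data -/
structure Dt (Q D1 : Subgroup P) : Prop where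
  A0 : E 1 0 0 0 0 0 ∈ tr Q
  A1 : ∀ q ∈ Q, ∀ v ∈ tr Q, br q v ∈ tr Q
  A2 : ∀ q ∈ Q, ∀ v ∈ tr D1, br q v ∈ tr D1
  A3 : ∀ y ∈ D1, ∀ v ∈ tr D1, br y v = 0
  A4 : ∀ y ∈ D1, ∀ v ∈ tr Q, br y v ∈ tr D1
  A6 : ∀ v, v ∉ tr Q → (∀ q ∈ Q, br q v ∈ tr Q) → ∀ y ∈ D1, y ∉ A → br y v ∉ tr D1
  cd : Nat.card (tr Q) = Nat.card D1
  ex : ∃ k ∈ D1, k ∉ A
  le : D1 ≤ Q
  cj : ∀ q ∈ Q, ∀ y ∈ D1, q * y * q⁻¹ * y⁻¹ ∈ D1

theorem mk_Dt {Q D1 : Subgroup P} (h1 : D1 ≤ Q) (h2 : ∀ q ∈ Q, ∀ d ∈ D1, q * d * q⁻¹ ∈ D1)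
    (h3 : Nat.card D1 = Nat.card ↥(Q ⊓ A)) (h4 : ∀ x ∈ D1, ∀ y ∈ D1, x * y = y * x)
    (h6 : ∀ x : P, (∀ q ∈ Q, x * q = q * x) → x ∈ Q) (h8 : D1 ≠ Q ⊓ A)
    (h9 : ∀ b ∈ A, b ∉ Q → (∀ q ∈ Q, b * q * b⁻¹ ∈ Q) → ∀ y ∈ D1, y ∉ A → y * b * y⁻¹ * b⁻¹ ∉ D1) : Dt Q D1 := by
  have hbr : ∀ (x : P) (v : Lin.V), vec (br x v) = x * vec v * x⁻¹ * (vec v)⁻¹ := by
    intro x v
    rw [br_vec, mul_inv_cancel_right]
  refine ⟨?_, ?_, ?_, ?_, ?_, ?_, ?_, ?_, h1, ?_⟩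
  · refine h6 _ fun q _ => ?_
    have h := br_vec q (E 1 0 0 0 0 0)
    have h' : br q (E 1 0 0 0 0 0) = 0 := by
      rw [br_E, ← E_zero]
      congr 1
    rw [h', vec_zero, one_mul, mul_inv_eq_iff_eq_mul] at h
    exact h.symm
  · intro q hq v hv
    rw [mem_tr] at hv ⊢
    rw [hbr]
    exact mul_mem (mul_mem (mul_mem hq hv) (inv_mem hq)) (inv_mem hv)
  · intro q hq v hv
    rw [mem_tr] at hv ⊢
    rw [hbr]
    exact mul_mem (h2 q hq _ hv) (inv_mem hv)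
  · intro y hy v hv
    apply vec_injective
    rw [hbr, vec_zero, h4 y hy _ hv, mul_inv_cancel_right, mul_inv_cancel]
  · intro y hy v hv
    rw [mem_tr] at hv ⊢
    rw [hbr]
    have e : y * vec v * y⁻¹ * (vec v)⁻¹ = y * (vec v * y⁻¹ * (vec v)⁻¹) := by group
    rw [e]
    exact mul_mem hy (h2 _ hv _ (inv_mem hy))
  · intro v hv hq y hy hyA
    rw [mem_tr, hbr]
    refine h9 _ (vec_mem v) hv (fun q hqQ => ?_) y hy hyA
    have h := hq q hqQ
    rw [mem_tr, hbr] at h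
    have e : vec v * q * (vec v)⁻¹ = (q * vec v * q⁻¹ * (vec v)⁻¹)⁻¹ * q := by group
    rw [e]
    exact mul_mem (inv_mem h) hqQ
  · rw [h3, card_tr]
  · by_contra hcon
    push Not at hcon
    have hle : D1 ≤ Q ⊓ A := fun x hx => ⟨h1 hx, hcon x hx⟩
    exact h8 (SetLike.coe_injective (Set.eq_of_subset_of_ncard_le hle (by
      rw [← Nat.card_coe_set_eq, ← Nat.card_coe_set_eq]; exact h3.ge) (Set.toFinite _)))
  · intro q hq y hy
    exact mul_mem (h2 q hq y hy) (inv_mem hy)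

theorem z3a {a : ZMod 3} (h : a ≠ 0) : a * a = 1 := by revert a; decide

theorem h30 : (3 : ZMod 3) = 0 := rfl

theorem z3b {a b a' b' : ZMod 3} (h : a ≠ 0) (h' : a' * b = a * b') : b' = a * a' * b := by
  revert a b a' b'; decide

section

variable {Q D1 : Subgroup P} (h : Dt Q D1)
include h

theorem Dt.C_le : tr D1 ≤ tr Q := fun _ hv => h.le hv

theorem Dt.e0 (x : ZMod 3) : E x 0 0 0 0 0 ∈ tr Q := by
  have h1 := (tr Q).smul_mem x h.A0
  rw [E_smul] at h1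
  simpa using h1

theorem Dt.e01 (h1 : E 0 1 0 0 0 0 ∈ tr Q) (x y : ZMod 3) : E x y 0 0 0 0 ∈ tr Q := by
  have h2 := (tr Q).add_mem (h.e0 x) ((tr Q).smul_mem y h1)
  rw [E_smul, E_add] at h2
  simpa using h2

/-- counting with `a` -/
theorem Dt.L1 (ha : ∀ y ∈ D1, y ∉ A → y.a ≠ 0) : Nat.card (tr Q) ≤ 3 * Nat.card (tr D1) := by
  rw [h.cd, card_tr]
  have h1 := card_le (D1 := D1) (fun y => y.a) (fun y hy y' hy' e => by
    by_contra hcon
    have h2 := ha _ (mul_mem (inv_mem hy) hy') hcon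
    apply h2
    rw [mul_a, inv_a, e]; ring)
  rwa [Nat.card_zmod] at h1

theorem Dt.comm_a (ha : ∀ y ∈ D1, y ∉ A → y.a ≠ 0) {k : P} (hk : k ∈ D1) {q : P} (hq : q ∈ Q) : q.a * k.b = k.a * q.b := by
  have h1 := h.cj q hq k hk
  have h2 : q * k * q⁻¹ * k⁻¹ ∈ A := by
    by_contra hcon
    apply ha _ h1 hcon
    simp only [mul_a, inv_a]; ring
  have h3 : (q * k * q⁻¹ * k⁻¹).c = 0 := h2.2.2
  simp only [mul_a, mul_c, inv_c, inv_a, inv_b] at h3
  linear_combination h3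

theorem Dt.case1 (h1 : E 0 1 0 0 0 0 ∉ tr Q) : False := by
  have hbr1 : ∀ q, br q (E 0 1 0 0 0 0) = E (2 * q.a) 0 0 0 0 0 := by
    intro q; rw [br_E]; congr 1 <;> ring
  have k1 : ∀ y ∈ D1, y ∉ A → E (2 * y.a) 0 0 0 0 0 ∉ tr D1 := by
    intro y hy hyA
    rw [← hbr1]
    refine h.A6 _ h1 (fun q hq => ?_) y hy hyA
    rw [hbr1]; exact h.e0 _
  have k2 : ∀ y ∈ D1, y ∉ A → y.a ≠ 0 := by
    intro y hy hyA h0
    apply k1 y hy hyA
    rw [h0, mul_zero, E_zero]; exact zero_mem _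
  obtain ⟨k, hk, hkA⟩ := h.ex
  have ka := k2 k hk hkA
  have k3 : ∀ x : ZMod 3, x ≠ 0 → E x 0 0 0 0 0 ∉ tr D1 := by
    intro x hx hcon
    apply k1 k hk hkA
    have h2 := (tr D1).smul_mem (2 * k.a * x) hcon
    rw [E_smul] at h2
    have e : 2 * k.a * x * x = 2 * k.a := by rw [mul_assoc, z3a hx, mul_one]
    rw [e] at h2
    simpa using h2
  have hN := N1 h.C_le (h.L1 k2) h.A0 (k3 1 one_ne_zero)
  have hab : ∀ q ∈ Q, q.b = k.a * q.a * k.b := fun q hq => z3b ka (h.comm_a k2 hk hq)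
  obtain ⟨a, hae⟩ : ∃ a, a = k.a := ⟨_, rfl⟩
  obtain ⟨b, hbe⟩ : ∃ b, b = k.b := ⟨_, rfl⟩
  obtain ⟨c, hce⟩ : ∃ c, c = k.c := ⟨_, rfl⟩
  rw [← hae] at ka hab
  rw [← hbe] at hab
  have a2 := z3a ka
  -- `u`
  have hu : ∀ q ∈ Q, br q (E 0 (c + a * b) b (-a) 0 0) =
      E (2 * q.a * (c + a * b) + q.a ^ 2 * b - 2 * a * q.c) 0 0 0 0 0 := by
    intro q hq
    rw [br_E, hab q hq]
    congr 1
    · ring
    · linear_combination (-q.a * b) * a2
  have huD : E 0 (c + a * b) b (-a) 0 0 ∈ tr Q := by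
    by_contra hcon
    refine h.A6 _ hcon (fun q hq => ?_) k hk hkA ?_
    · rw [hu q hq]; exact h.e0 _
    · rw [hu k (h.le hk), ← hae, ← hce]
      have e : 2 * a * (c + a * b) + a ^ 2 * b - 2 * a * c = 0 := by
        clear * -
        revert a b c; decide
      rw [e, E_zero]; exact zero_mem _
  obtain ⟨l, hl⟩ := hN _ huD
  rw [E_smul, E_sub] at hl
  have hx : ∀ q ∈ Q, 2 * q.a * (c + a * b) + q.a ^ 2 * b - 2 * a * q.c = 0 := by
    intro q hq
    by_contra hcon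
    have h2 := h.A2 q hq _ hl
    apply k3 _ hcon
    have e : br q (E (0 - l * 1) (c + a * b - l * 0) (b - l * 0) (-a - l * 0) (0 - l * 0) (0 - l * 0)) =
        br q (E 0 (c + a * b) b (-a) 0 0) := by
      rw [br_E, br_E]
      congr 1 <;> ring
    rw [e, hu q hq] at h2
    exact h2
  -- the test vector
  obtain ⟨m, hm⟩ : ∃ m, m = 2 * a * (b - l) := ⟨_, rfl⟩
  have hv : ∀ q ∈ Q, br q (E 0 m (-(a * (c + a * b))) 0 (-1) 0) =
      E (2 * q.a * m - q.a ^ 2 * (a * (c + a * b)) - 2 * q.a * q.c) (a * q.a * (c + a * b))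
        (a * q.a * b) (a * q.a * (-a)) 0 0 := by
    intro q hq
    rw [br_E]
    have e1 := hab q hq
    have e2 := hx q hq
    congr 1
    · ring
    · linear_combination (-a) * e2 - q.a * e1 - 2 * q.c * a2 - q.c * h30
    · linear_combination (-2) * e1 - a * q.a * b * h30
    · linear_combination q.a * a2
  have hvD : E 0 m (-(a * (c + a * b))) 0 (-1) 0 ∉ tr Q := by
    intro hcon
    obtain ⟨l', hl'⟩ := hN _ hcon
    have h2 := h.A3 k hk _ hl'
    rw [br_sub, br_smul, hv k (h.le hk), br_E, E_smul, E_sub, ← E_zero, ← hae] at h2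
    obtain ⟨-, -, -, h3, -, -⟩ := E_inj h2
    apply ka
    linear_combination (-1) * h3 - a * a2
  refine h.A6 _ hvD (fun q hq => ?_) k hk hkA ?_
  · rw [hv q hq]
    have h2 := (tr Q).add_mem (h.e0 (2 * q.a * m - q.a ^ 2 * (a * (c + a * b)) - 2 * q.a * q.c))
      ((tr Q).smul_mem (a * q.a) huD)
    rw [E_smul, E_add] at h2
    simpa using h2
  · rw [hv k (h.le hk), ← hae, ← hce]
    have e : E (2 * a * m - a ^ 2 * (a * (c + a * b)) - 2 * a * c) (a * a * (c + a * b)) (a * a * b) (a * a * -a) 0 0 =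
        E (0 - l * 1) (c + a * b - l * 0) (b - l * 0) (-a - l * 0) (0 - l * 0) (0 - l * 0) := by
      rw [a2, hm]
      congr 1
      · linear_combination (4 * (b - l) - b - a * (c + a * b)) * a2 + (b - l - a * c) * h30
      all_goals ring
    rw [e]; exact hl

theorem Dt.case2i (h1 : E 0 1 0 0 0 0 ∈ tr Q) (h2 : ¬ (E 0 0 1 0 0 0 ∈ tr Q ∧ E 0 0 0 1 0 0 ∈ tr Q)) {k : P}
    (hk : k ∈ D1) (ka : k.a ≠ 0) : False := by
  have hkA : k ∉ A := fun hA => ka hA.1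
  have a2 := z3a ka
  have c0 : ∀ x, E x 0 0 0 0 0 ∈ tr D1 := by
    intro x
    have h3 := (tr D1).smul_mem (2 * k.a * x) (h.A4 k hk _ h1)
    rw [br_E, E_smul] at h3
    convert h3 using 1
    congr 1
    · linear_combination (-4 * x) * a2 - x * h30
    all_goals ring
  have c1 : E 0 1 0 0 0 0 ∉ tr D1 := by
    intro hcon
    have h3 := h.A3 k hk _ hcon
    rw [br_E, ← E_zero] at h3
    have h4 := (E_inj h3).1
    apply ka
    linear_combination 2 * h4 - k.a * h30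
  have hb : ∀ q, br q (E 0 0 k.b (-k.a) 0 0) = E (q.a ^ 2 * k.b - 2 * k.a * q.c) (q.a * k.b - k.a * q.b) 0 0 0 0 := by
    intro q
    rw [br_E]
    congr 1 <;> ring
  have hbD : E 0 0 k.b (-k.a) 0 0 ∈ tr Q := by
    by_contra hcon
    refine h.A6 _ hcon (fun q hq => ?_) k hk hkA ?_
    · rw [hb]; exact h.e01 h1 _ _
    · rw [hb, sub_eq_zero.2 (rfl : k.a * k.b = k.a * k.b)]; exact c0 _
  have he2 : ∀ q, br q (E 0 0 1 0 0 0) = E (q.a ^ 2) q.a 0 0 0 0 := by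
    intro q
    rw [br_E]
    congr 1 <;> ring
  have k2 : ∀ y ∈ D1, y ∉ A → y.a ≠ 0 := by
    intro y hy hyA h0
    have h3 : E 0 0 1 0 0 0 ∈ tr Q := by
      by_contra hcon
      refine h.A6 _ hcon (fun q hq => ?_) y hy hyA ?_
      · rw [he2]; exact h.e01 h1 _ _
      · rw [he2, h0, zero_pow two_ne_zero, E_zero]; exact zero_mem _
    refine h2 ⟨h3, ?_⟩
    have h4 := (tr Q).smul_mem (-k.a) ((tr Q).sub_mem hbD ((tr Q).smul_mem k.b h3))
    rw [E_smul, E_sub, E_smul] at h4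
    convert h4 using 1
    congr 1
    · ring
    · ring
    · ring
    · linear_combination (-1) * a2
    all_goals ring
  have hN := N1 h.C_le (h.L1 k2) h1 c1
  have hab : ∀ q ∈ Q, q.b = k.a * q.a * k.b := fun q hq => z3b ka (h.comm_a k2 hk hq)
  obtain ⟨a, hae⟩ : ∃ a, a = k.a := ⟨_, rfl⟩
  obtain ⟨b, hbe⟩ : ∃ b, b = k.b := ⟨_, rfl⟩
  obtain ⟨c, hce⟩ : ∃ c, c = k.c := ⟨_, rfl⟩
  rw [← hae] at ka hab hbD a2
  rw [← hbe] at hab hbD
  have huD : E 0 (c + a * b) b (-a) 0 0 ∈ tr Q := by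
    have h3 := (tr Q).add_mem hbD (h.e01 h1 0 (c + a * b))
    rw [E_add] at h3
    convert h3 using 1
    congr 1 <;> ring
  have huC : E 0 (c + a * b) b (-a) 0 0 ∈ tr D1 := by
    obtain ⟨l, hl⟩ := hN _ huD
    have h3 := h.A3 k hk _ hl
    rw [E_smul, E_sub, br_E, ← E_zero, ← hae, ← hbe, ← hce] at h3
    have h4 := (E_inj h3).1
    have h5 : l = 0 := by
      have h6 : a * l = 0 := by
        linear_combination h4 + (l * a - a * a * b) * h30
      exact (mul_eq_zero.1 h6).resolve_left ka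
    rw [h5, zero_smul, sub_zero] at hl
    exact hl
  have hvD : E 0 0 (a * (c + a * b)) 0 1 0 ∈ tr Q := by
    by_contra hcon
    refine h.A6 _ hcon (fun q hq => ?_) k hk hkA ?_
    · have h3 := (tr Q).add_mem ((tr Q).smul_mem (-(a * q.a)) hbD) (h.e01 h1 (q.a ^ 2 * (a * (c + a * b)) + 2 * q.a * q.c)
        (q.a * (a * (c + a * b)) + q.c + q.b * q.a))
      rw [E_smul, E_add] at h3
      rw [br_E]
      have e1 := hab q hq
      convert h3 using 1
      congr 1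
      · ring
      · ring
      · linear_combination 2 * e1 + a * q.a * b * h30
      · linear_combination (-q.a) * a2
    · have h3 := (tr D1).sub_mem (c0 b) huC
      rw [E_sub] at h3
      rw [br_E, ← hae, ← hbe, ← hce]
      convert h3 using 1
      congr 1
      · linear_combination (a * (c + a * b) + b) * a2 + a * c * h30
      · linear_combination (c + a * b) * a2 + (c + a * b) * h30
      · linear_combination b * h30
      all_goals ring
  obtain ⟨l, hl⟩ := hN _ hvD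
  have h3 := h.A3 k hk _ hl
  rw [E_smul, E_sub, br_E, ← E_zero, ← hae, ← hbe, ← hce] at h3
  have h4 := (E_inj h3).2.2.2.1
  apply ka
  linear_combination h4

theorem kerU1 {x : P} (hxa : x.a = 0) (hx : x.b ≠ 0 ∨ x.c ≠ 0) {v : Lin.V} (hv : br x v = 0) :
    v 3 = 0 ∧ v 4 = 0 ∧ v 5 = 0 := by
  clear h
  rw [br, ← E_zero, hxa] at hv
  obtain ⟨h0, h1, h2, h3, h4, -⟩ := E_inj hv
  have key : ∀ b c v3 v4 v5 : ZMod 3, (b ≠ 0 ∨ c ≠ 0) → 2 * c * v3 + c ^ 2 * v5 = 0 → c * v4 + b * (v3 + c * v5) = 0 →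
      2 * b * v4 + b ^ 2 * v5 = 0 → c * v5 = 0 → b * v5 = 0 → v3 = 0 ∧ v4 = 0 ∧ v5 = 0 := by decide
  refine key x.b x.c (v 3) (v 4) (v 5) hx ?_ ?_ h2 ?_ h4
  · linear_combination h0
  · linear_combination h1
  · linear_combination h3

theorem notA {x : P} (hxa : x.a = 0) (hx : x ∉ A) : x.b ≠ 0 ∨ x.c ≠ 0 := by
  clear h
  by_contra hcon
  push Not at hcon
  exact hx ⟨hxa, hcon.1, hcon.2⟩

theorem Dt.C_W3 (ha : ∀ y ∈ D1, y.a = 0) {v : Lin.V} (hv : v ∈ tr D1) : v 3 = 0 ∧ v 4 = 0 ∧ v 5 = 0 := by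
  obtain ⟨k, hk, hkA⟩ := h.ex
  exact kerU1 h (ha k hk) (notA h (ha k hk) hkA) (h.A3 k hk v hv)

theorem Dt.L3 (ha : ∀ y ∈ D1, y.a = 0) {k : P} (hkA : k.b ≠ 0 ∨ k.c ≠ 0)
    (hB : ∀ y ∈ D1, k.b * y.c = y.b * k.c) : Nat.card (tr Q) ≤ 3 * Nat.card (tr D1) := by
  rw [h.cd, card_tr]
  have h1 := card_le (D1 := D1) (fun y => k.b * y.b + k.c * y.c) (fun y hy y' hy' e => by
    have h2 := mul_mem (inv_mem hy) hy'
    have h3 := hB _ h2
    have h4 := ha _ h2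
    have h5 := ha y hy
    have key : ∀ b c b' c' : ZMod 3, (b ≠ 0 ∨ c ≠ 0) → b * c' = b' * c → b * b' + c * c' = 0 → b' = 0 ∧ c' = 0 := by
      decide
    have h6 := key k.b k.c _ _ hkA h3 (by
      simp only [mul_b, mul_c, inv_b, inv_c, inv_a, h5]
      linear_combination (-1) * e)
    exact ⟨h4, h6.1, h6.2⟩)
  rwa [Nat.card_zmod] at h1

theorem Dt.L2 (ha : ∀ y ∈ D1, y.a = 0) : Nat.card (tr Q) ≤ 9 * Nat.card (tr D1) := by
  rw [h.cd, card_tr]
  have h1 := card_le (D1 := D1) (fun y => (y.b, y.c)) (fun y hy y' hy' e => by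
    have h2 := mul_mem (inv_mem hy) hy'
    have h5 := ha y hy
    have e1 : y.b = y'.b := congrArg Prod.fst e
    have e2 : y.c = y'.c := congrArg Prod.snd e
    refine ⟨ha _ h2, ?_, ?_⟩
    · simp only [mul_b, inv_b, e1]; ring
    · simp only [mul_c, inv_c, inv_a, h5, e2]; ring)
  rwa [Nat.card_prod, Nat.card_zmod] at h1

theorem pow_bc {k : P} (hk : k.a = 0) (n : ℕ) : (k ^ n).a = 0 ∧ (k ^ n).b = n * k.b ∧ (k ^ n).c = n * k.c := by
  clear h
  induction n with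
  | zero => simp
  | succ n ih =>
    obtain ⟨h1, h2, h3⟩ := ih
    rw [pow_succ, mul_a, mul_b, mul_c, h1, h2, h3, hk]
    push_cast
    refine ⟨by ring, by ring, by ring⟩

theorem Dt.U1 (ha : ∀ y ∈ D1, y.a = 0) {k k' : P} (hk : k ∈ D1) (hk' : k' ∈ D1) (hB : k.b * k'.c ≠ k'.b * k.c) :
    ∀ s t : ZMod 3, ∃ y ∈ D1, y.b = s ∧ y.c = t := by
  intro s t
  obtain ⟨d, hd⟩ : ∃ d, d = k.b * k'.c - k'.b * k.c := ⟨_, rfl⟩
  have hd0 : d ≠ 0 := by rw [hd]; exact sub_ne_zero.2 hB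
  have d2 := z3a hd0
  obtain ⟨p1, p2, p3⟩ := pow_bc h (ha k hk) (d * (s * k'.c - t * k'.b)).val
  obtain ⟨q1, q2, q3⟩ := pow_bc h (ha k' hk') (d * (k.b * t - k.c * s)).val
  rw [ZMod.natCast_zmod_val] at p2 p3 q2 q3
  refine ⟨k ^ (d * (s * k'.c - t * k'.b)).val * k' ^ (d * (k.b * t - k.c * s)).val,
    mul_mem (pow_mem hk _) (pow_mem hk' _), ?_, ?_⟩
  · rw [mul_b, p2, q2]
    linear_combination s * d2 - s * d * hd
  · rw [mul_c, p3, q3, p1]
    linear_combination t * d2 - t * d * hd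

/-- the exceptional configuration -/
theorem Dt.case2ii (h1 : E 0 1 0 0 0 0 ∈ tr Q) (h2 : ¬ (E 0 0 1 0 0 0 ∈ tr Q ∧ E 0 0 0 1 0 0 ∈ tr Q))
    (ha : ∀ y ∈ D1, y.a = 0) : (∀ q ∈ Q, q.a = 0) ∧ (∀ s t : ZMod 3, ∃ y ∈ D1, y.b = s ∧ y.c = t) ∧
      ∀ v, v ∈ tr Q ↔ v 3 = 0 ∧ v 4 = 0 ∧ v 5 = 0 := by
  obtain ⟨k, hk, hkA⟩ := h.ex
  have hk0 := ha k hk
  have hkbc := notA h hk0 hkA
  have he2 : ∀ q, br q (E 0 0 1 0 0 0) = E (q.a ^ 2) q.a 0 0 0 0 := by
    intro q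
    rw [br_E]
    congr 1 <;> ring
  have he3 : ∀ q, br q (E 0 0 0 1 0 0) = E (2 * q.c) q.b 0 0 0 0 := by
    intro q
    rw [br_E]
    congr 1 <;> ring
  have h3 : E 0 0 1 0 0 0 ∈ tr Q := by
    by_contra hcon
    refine h.A6 _ hcon (fun q hq => ?_) k hk hkA ?_
    · rw [he2]; exact h.e01 h1 _ _
    · rw [he2, hk0, zero_pow two_ne_zero, E_zero]; exact zero_mem _
  have h4 : E 0 0 0 1 0 0 ∉ tr Q := fun h4 => h2 ⟨h3, h4⟩
  have hs : ∀ y ∈ D1, y ∉ A → E (2 * y.c) y.b 0 0 0 0 ∉ tr D1 := by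
    intro y hy hyA
    rw [← he3]
    refine h.A6 _ h4 (fun q hq => ?_) y hy hyA
    rw [he3]; exact h.e01 h1 _ _
  have hW3 : ∀ x y z : ZMod 3, E x y z 0 0 0 ∈ tr Q := by
    intro x y z
    have h5 := (tr Q).add_mem (h.e01 h1 x y) ((tr Q).smul_mem z h3)
    rw [E_smul, E_add] at h5
    simpa using h5
  have hCW : ∀ v ∈ tr D1, v 3 = 0 ∧ v 4 = 0 ∧ v 5 = 0 := fun v hv => h.C_W3 ha hv
  by_cases hB : ∀ y ∈ D1, k.b * y.c = y.b * k.c
  · exfalso
    have hN := N1 h.C_le (h.L3 ha hkbc hB) (h.e01 h1 _ _) (hs k hk hkA)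
    have hDW : ∀ v ∈ tr Q, v 3 = 0 ∧ v 4 = 0 ∧ v 5 = 0 := by
      intro v hv
      obtain ⟨l, hl⟩ := hN v hv
      obtain ⟨e3, e4, e5⟩ := hCW _ hl
      rw [E_smul] at e3 e4 e5
      refine ⟨?_, ?_, ?_⟩
      · have : v 3 - l * 0 = 0 := e3
        linear_combination this
      · have : v 4 - l * 0 = 0 := e4
        linear_combination this
      · have : v 5 - l * 0 = 0 := e5
        linear_combination this
    by_cases hq0 : ∀ q ∈ Q, q.a = 0
    · -- the test vector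
      obtain ⟨l, hl⟩ := hN _ (hW3 0 k.c (2 * k.b))
      refine h.A6 (E 0 0 0 (-l) 1 0) ?_ (fun q hq => ?_) k hk hkA ?_
      · intro hcon
        have := (hDW _ hcon).2.1
        exact one_ne_zero this
      · rw [br_E, hq0 q hq]
        have := hW3 (2 * q.c * (-l)) (q.c + q.b * (-l)) (2 * q.b)
        convert this using 1
        congr 1 <;> ring
      · rw [br_E, hk0]
        rw [E_smul, E_sub] at hl
        convert hl using 1
        congr 1 <;> ring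
    · push Not at hq0
      obtain ⟨q, hq, hqa⟩ := hq0
      have h5 := hB _ (h.cj q hq k hk)
      simp only [mul_a, mul_b, mul_c, inv_a, inv_b, inv_c, hk0] at h5
      have h6 : k.b * (q.a * k.b) = 0 := by linear_combination h5
      have h7 : k.b = 0 := by
        rcases mul_eq_zero.1 h6 with h7 | h7
        · exact h7
        · exact (mul_eq_zero.1 h7).resolve_left hqa
      obtain ⟨l, hl⟩ := hN _ h1
      have h8 := h.A2 q hq _ hl
      rw [E_smul, E_sub, h7, br_E] at h8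
      have h9 : E (2 * q.a) 0 0 0 0 0 ∈ tr D1 := by
        convert h8 using 1
        congr 1 <;> ring
      apply hs k hk hkA
      have h10 := (tr D1).smul_mem (2 * q.a * (2 * k.c)) h9
      rw [E_smul] at h10
      have q2 := z3a hqa
      convert h10 using 1
      rw [h7]
      congr 1
      · linear_combination (-8 * k.c) * q2 - 2 * k.c * h30
      all_goals ring
  · push Not at hB
    obtain ⟨k', hk', hB⟩ := hB
    have hU := h.U1 ha hk hk' hB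
    have hC2 : ∀ x y : ZMod 3, E x y 0 0 0 0 ∈ tr D1 → x = 0 ∧ y = 0 := by
      intro x y hxy
      obtain ⟨z, hz, hzb, hzc⟩ := hU y (2 * x)
      by_contra hcon
      apply hs z hz
      · rintro ⟨-, hb, hc⟩
        rw [hzb] at hb
        rw [hzc] at hc
        apply hcon
        refine ⟨?_, hb⟩
        linear_combination 2 * hc - x * h30
      · rw [hzb, hzc]
        convert hxy using 2
        linear_combination x * h30
    have hC3 : ∀ v ∈ tr D1, v 2 = 0 → v = 0 := by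
      intro v hv hv2
      obtain ⟨v3, v4, v5⟩ := hCW v hv
      rw [E_eta v, hv2, v3, v4, v5] at hv ⊢
      obtain ⟨e0, e1⟩ := hC2 _ _ hv
      rw [e0, e1, E_zero]
    have hcC : Nat.card (tr D1) ≤ 3 := by
      have h6 : Nat.card (tr D1) ≤ Nat.card (ZMod 3) := by
        refine Nat.card_le_card_of_injective (fun v : tr D1 => v.1 2) ?_
        intro v w hvw
        have h5 := hC3 (v.1 - w.1) ((tr D1).sub_mem v.2 w.2) (sub_eq_zero.2 hvw)
        exact Subtype.ext (sub_eq_zero.1 h5)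
      rwa [Nat.card_zmod] at h6
    have hcD : Nat.card (tr Q) ≤ 27 := by
      have := h.L2 ha
      omega
    -- `D = W₃`
    have hDW : ∀ v ∈ tr Q, v 3 = 0 ∧ v 4 = 0 ∧ v 5 = 0 := by
      intro v hv
      let g : ZMod 3 × ZMod 3 × ZMod 3 → tr Q := fun p => ⟨E p.1 p.2.1 p.2.2 0 0 0, hW3 _ _ _⟩
      have hg : Function.Injective g := by
        intro p p' hpp
        have h5 := E_inj (congrArg Subtype.val hpp)
        exact Prod.ext h5.1 (Prod.ext h5.2.1 h5.2.2.1)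
      have hgb : Function.Bijective g := by
        rw [Nat.bijective_iff_injective_and_card]
        refine ⟨hg, le_antisymm (Nat.card_le_card_of_injective g hg) ?_⟩
        rw [Nat.card_prod, Nat.card_prod, Nat.card_zmod]
        exact hcD
      obtain ⟨p, hp⟩ := hgb.2 ⟨v, hv⟩
      have h5 : E p.1 p.2.1 p.2.2 0 0 0 = v := congrArg Subtype.val hp
      rw [← h5]
      exact ⟨rfl, rfl, rfl⟩
    refine ⟨?_, hU, fun v => ⟨hDW v, fun hv => ?_⟩⟩
    · -- a nonzero element of `C`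
      obtain ⟨c, hc, hc0⟩ : ∃ c ∈ tr D1, c ≠ 0 := by
        by_contra hcon
        push Not at hcon
        have h5 : Nat.card (tr D1) ≤ 1 := by
          rw [Finite.card_le_one_iff_subsingleton]
          exact ⟨fun v w => Subtype.ext ((hcon _ v.2).trans (hcon _ w.2).symm)⟩
        have h6 := h.L2 ha
        have h7 : 27 ≤ Nat.card (tr Q) := by
          have h8 := Nat.card_le_card_of_injective (fun p : ZMod 3 × ZMod 3 × ZMod 3 =>
            (⟨E p.1 p.2.1 p.2.2 0 0 0, hW3 _ _ _⟩ : tr Q)) (by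
              intro p p' hpp
              have h5 := E_inj (congrArg Subtype.val hpp)
              exact Prod.ext h5.1 (Prod.ext h5.2.1 h5.2.2.1))
          rw [Nat.card_prod, Nat.card_prod, Nat.card_zmod] at h8
          exact h8
        omega
      have hc2 : c 2 ≠ 0 := fun e => hc0 (hC3 c hc e)
      obtain ⟨c3, c4, c5⟩ := hCW c hc
      intro q hq
      have h5 := h.A2 q hq c hc
      rw [br, c3, c4, c5] at h5
      have h6 : E (2 * q.a * c 1 + q.a ^ 2 * c 2) (q.a * c 2) 0 0 0 0 ∈ tr D1 := by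
        convert h5 using 1
        congr 1 <;> ring
      exact (mul_eq_zero.1 (hC2 _ _ h6).2).resolve_right hc2
    · rw [E_eta v, hv.1, hv.2.1, hv.2.2]
      exact hW3 _ _ _

theorem Dt.case34 (h1 : E 0 1 0 0 0 0 ∈ tr Q) (h2 : E 0 0 1 0 0 0 ∈ tr Q) (h3 : E 0 0 0 1 0 0 ∈ tr Q) (h7 : ¬ A ≤ Q) :
    (∀ y ∈ D1, y.a = 0) ∧ (∀ s t : ZMod 3, ∃ y ∈ D1, y.b = s ∧ y.c = t) ∧ (∀ v, v ∈ tr Q ↔ v 5 = 0) ∧
      ∀ v, v ∈ tr D1 ↔ v 3 = 0 ∧ v 4 = 0 ∧ v 5 = 0 := by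
  have hX4 : ∀ x y z u : ZMod 3, E x y z u 0 0 ∈ tr Q := by
    intro x y z u
    have h5 := (tr Q).add_mem ((tr Q).add_mem (h.e01 h1 x y) ((tr Q).smul_mem z h2)) ((tr Q).smul_mem u h3)
    rw [E_smul, E_add, E_smul, E_add] at h5
    simpa using h5
  have ha : ∀ y ∈ D1, y.a = 0 := by
    intro y hy
    by_contra hcon
    have a2 := z3a hcon
    have h5 := h.A4 y hy _ h2
    have h6 := h.A3 y hy _ h5
    rw [br_E, br_E, ← E_zero] at h6
    have h7 := (E_inj h6).1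
    apply hcon
    linear_combination (2 * y.a) * h7 - 4 * y.a * a2 - y.a * h30
  obtain ⟨k, hk, hkA⟩ := h.ex
  have hk0 := ha k hk
  have hkbc := notA h hk0 hkA
  have he3 : ∀ q, br q (E 0 0 0 1 0 0) = E (2 * q.c) q.b 0 0 0 0 := by
    intro q
    rw [br_E]
    congr 1 <;> ring
  have he4 : ∀ q, br q (E 0 0 0 0 1 0) = E (2 * q.a * q.c) (q.c + q.b * q.a) (2 * q.b) q.a 0 0 := by
    intro q
    rw [br_E]
    congr 1 <;> ring
  have hCW : ∀ v ∈ tr D1, v 3 = 0 ∧ v 4 = 0 ∧ v 5 = 0 := fun v hv => h.C_W3 ha hv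
  have hC3 : E 0 0 0 1 0 0 ∉ tr D1 := fun hcon => one_ne_zero (hCW _ hcon).1
  have hs : E 0 0 0 0 1 0 ∉ tr Q → ∀ y ∈ D1, y ∉ A → E 0 y.c (2 * y.b) 0 0 0 ∉ tr D1 := by
    intro hcon y hy hyA
    have h5 := h.A6 _ hcon (fun q hq => by rw [he4]; exact hX4 _ _ _ _) y hy hyA
    rw [he4, ha y hy] at h5
    convert h5 using 2
    congr 1 <;> ring
  have hU : ∀ s t : ZMod 3, ∃ y ∈ D1, y.b = s ∧ y.c = t := by
    by_cases hB : ∀ y ∈ D1, k.b * y.c = y.b * k.c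
    · exfalso
      have hN := N1 h.C_le (h.L3 ha hkbc hB) h3 hC3
      by_cases h4 : E 0 0 0 0 1 0 ∈ tr Q
      · obtain ⟨l, hl⟩ := hN _ h4
        rw [E_smul, E_sub] at hl
        have h5 : (1 : ZMod 3) - l * 0 = 0 := (hCW _ hl).2.1
        rw [mul_zero, sub_zero] at h5
        exact one_ne_zero h5
      · obtain ⟨l, hl⟩ := hN _ (hX4 0 k.c (2 * k.b) 0)
        rw [E_smul, E_sub] at hl
        have h5 : (0 : ZMod 3) - l * 1 = 0 := (hCW _ hl).1
        apply hs h4 k hk hkA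
        have h6 : l = 0 := by linear_combination (-1) * h5
        rw [h6] at hl
        convert hl using 1
        congr 1 <;> ring
    · push Not at hB
      obtain ⟨k', hk', hB⟩ := hB
      exact h.U1 ha hk hk' hB
  have hC2 : ∀ x y : ZMod 3, E x y 0 0 0 0 ∈ tr D1 := by
    intro x y
    obtain ⟨z, hz, hzb, hzc⟩ := hU y (2 * x)
    have h5 := h.A4 z hz _ h3
    rw [he3, hzb, hzc] at h5
    convert h5 using 2
    linear_combination (-x) * h30
  have h4 : E 0 0 0 0 1 0 ∈ tr Q := by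
    by_contra hcon
    obtain ⟨z, hz, hzb, hzc⟩ := hU 0 1
    apply hs hcon z hz
    · rintro ⟨-, -, hc⟩
      rw [hzc] at hc
      exact one_ne_zero hc
    · rw [hzb, hzc, mul_zero]
      exact hC2 0 1
  have hW5 : ∀ x y z u w : ZMod 3, E x y z u w 0 ∈ tr Q := by
    intro x y z u w
    have h5 := (tr Q).add_mem (hX4 x y z u) ((tr Q).smul_mem w h4)
    rw [E_smul, E_add] at h5
    simpa using h5
  have h5 : E 0 0 0 0 0 1 ∉ tr Q := by
    intro hcon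
    apply h7
    intro x hx
    have h6 := (tr Q).add_mem (hW5 (crd x 0) (crd x 1) (crd x 2) (crd x 3) (crd x 4)) ((tr Q).smul_mem (crd x 5) hcon)
    rw [E_smul, E_add] at h6
    have h7 : crd x ∈ tr Q := by
      rw [E_eta (crd x)]
      convert h6 using 1
      congr 1 <;> ring
    rw [mem_tr, vec_crd hx] at h7
    exact h7
  refine ⟨ha, hU, fun v => ⟨fun hv => ?_, fun hv => ?_⟩, fun v => ⟨hCW v, fun hv => ?_⟩⟩
  · by_contra hcon
    apply h5
    have v2 := z3a hcon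
    have h6 := (tr Q).smul_mem (v 5) ((tr Q).sub_mem hv (hW5 (v 0) (v 1) (v 2) (v 3) (v 4)))
    nth_rw 2 [E_eta v] at h6
    rw [E_sub, E_smul] at h6
    convert h6 using 1
    congr 1
    · ring
    · ring
    · ring
    · ring
    · ring
    · linear_combination (-1) * v2
  · rw [E_eta v, hv]; exact hW5 _ _ _ _ _
  · have h6 := h.A4
    obtain ⟨z, hz, hzb, hzc⟩ := hU (2 * v 2) 0
    have h7 := h.A4 z hz _ h4
    rw [he4, hzb, hzc, ha z hz] at h7
    have h8 := (tr D1).add_mem h7 (hC2 (v 0) (v 1))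
    rw [E_add] at h8
    rw [E_eta v, hv.1, hv.2.1, hv.2.2]
    convert h8 using 1
    congr 1
    · ring
    · ring
    · linear_combination (-v 2) * h30
    all_goals ring

theorem Dt.fin (h4 : ∀ x ∈ D1, ∀ y ∈ D1, x * y = y * x) (h5 : ∀ x ∈ D1, x ^ 3 = 1) (ha : ∀ y ∈ D1, y.a = 0)
    (hU : ∀ s t : ZMod 3, ∃ y ∈ D1, y.b = s ∧ y.c = t) : ∃ i, D1 ≤ DD i := by
  have h33 : ∀ y ∈ D1, y.m33 = 0 := by
    intro y hy
    by_cases hyA : y ∈ A
    · have h6 : crd y ∈ tr D1 := by rw [mem_tr, vec_crd hyA]; exact hy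
      exact (h.C_W3 ha h6).2.2
    · have hbc := notA h (ha y hy) hyA
      have h6 := h5 y hy
      rw [pow_succ, pow_two] at h6
      have h7 := congrArg P.m11 h6
      have h8 := congrArg P.m22 h6
      simp only [mul_m11, mul_m22, mul_a, mul_b, mul_c, mul_m12, mul_m13, mul_m23, mul_m33, one_m11, one_m22, ha y hy] at h7 h8
      have key : ∀ b c m : ZMod 3, (b ≠ 0 ∨ c ≠ 0) → 2 * c ^ 2 * m = 0 → 2 * b ^ 2 * m = 0 → m = 0 := by decide
      refine key y.b y.c _ hbc ?_ ?_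
      · linear_combination h7 - (y.m11 + 2 * y.c * y.m13 + y.c ^ 2 * y.m33) * h30
      · linear_combination h8 - (y.m22 + 2 * y.b * y.m23 + y.b ^ 2 * y.m33) * h30
  obtain ⟨y1, hy1, hb1, hc1⟩ := hU 1 0
  obtain ⟨y2, hy2, hb2, hc2⟩ := hU 0 1
  have hc : ∀ y ∈ D1, y1.m13 * y.c = 0 ∧ y.m23 = y.b * y1.m23 ∧ y.m13 = y.c * y1.m23 + y.b * y1.m13 := by
    intro y hy
    have h6 := h4 y1 hy1 y hy
    have e0 := congrArg P.m11 h6
    have e1 := congrArg P.m12 h6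
    have e2 := congrArg P.m22 h6
    simp only [mul_m11, mul_m12, mul_m22, ha y hy, ha y1 hy1, h33 y hy, h33 y1 hy1, hb1, hc1] at e0 e1 e2
    refine ⟨?_, ?_, ?_⟩
    · linear_combination e0 + y.c * y1.m13 * h30
    · linear_combination 2 * e2 - (y.m23 - y.b * y1.m23) * h30
    · linear_combination e1
  have h0 : y1.m13 = 0 := by
    have := (hc y2 hy2).1
    rwa [hc2, mul_one] at this
  refine ⟨y1.m23, fun y hy => mem_DD.2 ⟨ha y hy, h33 y hy, ?_, ?_⟩⟩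
  · rw [(hc y hy).2.2, h0]; ring
  · rw [(hc y hy).2.1]; ring

end

/-- lemE3 -/
theorem lemE3 {Q D1 : Subgroup P} (h1 : D1 ≤ Q) (h2 : ∀ q ∈ Q, ∀ d ∈ D1, q * d * q⁻¹ ∈ D1)
    (h3 : Nat.card D1 = Nat.card ↥(Q ⊓ A)) (h4 : ∀ x ∈ D1, ∀ y ∈ D1, x * y = y * x) (h5 : ∀ x ∈ D1, x ^ 3 = 1)
    (h6 : ∀ x : P, (∀ q ∈ Q, x * q = q * x) → x ∈ Q) (h7 : ¬ A ≤ Q) (h8 : D1 ≠ Q ⊓ A)
    (h9 : ∀ b ∈ A, b ∉ Q → (∀ q ∈ Q, b * q * b⁻¹ ∈ Q) → ∀ y ∈ D1, y ∉ A → y * b * y⁻¹ * b⁻¹ ∉ D1) :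
    (Q ⊓ A = W5 ∧ ∃ i, D1 = DD i) ∨ ∃ i, Q = DD i := by
  have h := mk_Dt h1 h2 h3 h4 h6 h8 h9
  have e1 : E 0 1 0 0 0 0 ∈ tr Q := by
    by_contra hcon
    exact h.case1 hcon
  have hdiv : ∀ (i : ZMod 3) (x y : P), x ∈ DD i → y ∈ DD i → y.b = x.b → y.c = x.c → y⁻¹ * x ∈ A ∧
      crd (y⁻¹ * x) 3 = 0 ∧ crd (y⁻¹ * x) 4 = 0 ∧ crd (y⁻¹ * x) 5 = 0 := by
    intro i x y hx hy hb hc
    have hxy := (DD i).mul_mem ((DD i).inv_mem hy) hx
    have hA : y⁻¹ * x ∈ A := by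
      refine ⟨hxy.1, ?_, ?_⟩
      · simp only [mul_b, inv_b, hb]; ring
      · simp only [mul_c, inv_c, inv_a, hy.1, hc]; ring
    refine ⟨hA, ?_, ?_, hxy.2.1⟩
    · show (y⁻¹ * x).m13 = 0
      rw [hxy.2.2.1, hA.2.2, mul_zero]
    · show (y⁻¹ * x).m23 = 0
      rw [hxy.2.2.2, hA.2.1, mul_zero]
  by_cases hX : E 0 0 1 0 0 0 ∈ tr Q ∧ E 0 0 0 1 0 0 ∈ tr Q
  · left
    obtain ⟨ha, hU, hD, hC⟩ := h.case34 e1 hX.1 hX.2 h7
    obtain ⟨i, hi⟩ := h.fin h4 h5 ha hU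
    refine ⟨?_, i, le_antisymm hi ?_⟩
    · ext x
      constructor
      · rintro ⟨hxQ, hxA⟩
        have h10 : crd x ∈ tr Q := by rw [mem_tr, vec_crd hxA]; exact hxQ
        exact mem_W5.2 ⟨hxA.1, hxA.2.1, hxA.2.2, (hD _).1 h10⟩
      · intro hx
        obtain ⟨x1, x2, x3, x4⟩ := mem_W5.1 hx
        have hxA : x ∈ A := ⟨x1, x2, x3⟩
        refine ⟨?_, hxA⟩
        have h10 : crd x ∈ tr Q := (hD _).2 x4
        rwa [mem_tr, vec_crd hxA] at h10
    · intro x hx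
      obtain ⟨y, hy, hyb, hyc⟩ := hU x.b x.c
      obtain ⟨hA, h11⟩ := hdiv i x y hx (hi hy) hyb hyc
      have h12 := (hC _).2 h11
      rw [mem_tr, vec_crd hA] at h12
      rw [← mul_inv_cancel_left y x]
      exact D1.mul_mem hy h12
  · right
    by_cases ha : ∀ y ∈ D1, y.a = 0
    · obtain ⟨hQa, hU, hD⟩ := h.case2ii e1 hX ha
      obtain ⟨i, hi⟩ := h.fin h4 h5 ha hU
      refine ⟨i, le_antisymm ?_ ?_⟩
      · intro q hq
        obtain ⟨y, hy, hyb, hyc⟩ := hU q.b q.c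
        have hA : y⁻¹ * q ∈ A := by
          refine ⟨?_, ?_, ?_⟩
          · simp only [mul_a, inv_a, ha y hy, hQa q hq]; ring
          · simp only [mul_b, inv_b, hyb]; ring
          · simp only [mul_c, inv_c, inv_a, ha y hy, hyc]; ring
        have h10 : crd (y⁻¹ * q) ∈ tr Q := by
          rw [mem_tr, vec_crd hA]; exact Q.mul_mem (Q.inv_mem (h1 hy)) hq
        obtain ⟨v3, v4, v5⟩ := (hD _).1 h10
        have h11 : y⁻¹ * q ∈ DD i := by
          refine mem_DD.2 ⟨hA.1, v5, ?_, ?_⟩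
          · rw [hA.2.2, mul_zero]; exact v3
          · rw [hA.2.1, mul_zero]; exact v4
        rw [← mul_inv_cancel_left y q]
        exact (DD i).mul_mem (hi hy) h11
      · intro x hx
        obtain ⟨y, hy, hyb, hyc⟩ := hU x.b x.c
        obtain ⟨hA, h11⟩ := hdiv i x y hx (hi hy) hyb hyc
        have h12 := (hD _).2 h11
        rw [mem_tr, vec_crd hA] at h12
        rw [← mul_inv_cancel_left y x]
        exact Q.mul_mem (h1 hy) h12
    · push Not at ha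
      obtain ⟨k, hk, hka⟩ := ha
      exact (h.case2i e1 hX hk hka).elim

end Cfsg.Agent.H276.Co1
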