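import Cfsg.Agent.H776.Co.FusDef

/-!
# S5227: lemE3, the linear data
-/

set_option autoImplicit false
set_option linter.style.longLine false
set_option linter.unusedVariables false

namespace Cfsg.Agent.H276.Co1

open Subgroup Cfsg.Agent.H776.Co P

/-- a vector -/
def E (x0 x1 x2 x3 x4 x5 : ZMod 3) : Lin.V := ![x0, x1, x2, x3, x4, x5]

theorem E_eta (v : Lin.V) : v = E (v 0) (v 1) (v 2) (v 3) (v 4) (v 5) := by
  funext i
  fin_cases i <;> rfl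

theorem E_add (x0 x1 x2 x3 x4 x5 y0 y1 y2 y3 y4 y5 : ZMod 3) :
    E x0 x1 x2 x3 x4 x5 + E y0 y1 y2 y3 y4 y5 = E (x0 + y0) (x1 + y1) (x2 + y2) (x3 + y3) (x4 + y4) (x5 + y5) := by
  funext i
  fin_cases i <;> rfl

theorem E_sub (x0 x1 x2 x3 x4 x5 y0 y1 y2 y3 y4 y5 : ZMod 3) :
    E x0 x1 x2 x3 x4 x5 - E y0 y1 y2 y3 y4 y5 = E (x0 - y0) (x1 - y1) (x2 - y2) (x3 - y3) (x4 - y4) (x5 - y5) := by
  funext i
  fin_cases i <;> rfl

theorem E_smul (c x0 x1 x2 x3 x4 x5 : ZMod 3) :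
    c • E x0 x1 x2 x3 x4 x5 = E (c * x0) (c * x1) (c * x2) (c * x3) (c * x4) (c * x5) := by
  funext i
  fin_cases i <;> rfl

theorem E_zero : E 0 0 0 0 0 0 = 0 := by
  funext i
  fin_cases i <;> rfl

theorem E_inj {x0 x1 x2 x3 x4 x5 y0 y1 y2 y3 y4 y5 : ZMod 3} (h : E x0 x1 x2 x3 x4 x5 = E y0 y1 y2 y3 y4 y5) :
    x0 = y0 ∧ x1 = y1 ∧ x2 = y2 ∧ x3 = y3 ∧ x4 = y4 ∧ x5 = y5 :=
  ⟨congrFun h 0, congrFun h 1, congrFun h 2, congrFun h 3, congrFun h 4, congrFun h 5⟩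

/-- `(x - 1) v` -/
def br (x : P) (v : Lin.V) : Lin.V :=
  E (2 * x.a * v 1 + 2 * x.c * v 3 + x.a ^ 2 * v 2 + 2 * x.a * x.c * v 4 + x.c ^ 2 * v 5)
    (x.a * v 2 + x.c * v 4 + x.b * (v 3 + x.a * v 4 + x.c * v 5))
    (2 * x.b * v 4 + x.b ^ 2 * v 5) (x.a * v 4 + x.c * v 5) (x.b * v 5) 0

theorem br_E (x : P) (v0 v1 v2 v3 v4 v5 : ZMod 3) : br x (E v0 v1 v2 v3 v4 v5) =
    E (2 * x.a * v1 + 2 * x.c * v3 + x.a ^ 2 * v2 + 2 * x.a * x.c * v4 + x.c ^ 2 * v5)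
    (x.a * v2 + x.c * v4 + x.b * (v3 + x.a * v4 + x.c * v5))
    (2 * x.b * v4 + x.b ^ 2 * v5) (x.a * v4 + x.c * v5) (x.b * v5) 0 := rfl

theorem br_vec (x : P) (v : Lin.V) : x * vec v * x⁻¹ = vec (br x v) * vec v := by
  rw [conj_vec, ← vec_add]
  congr 1
  funext i
  fin_cases i <;> simp [br, E, Lin.tf] <;> ring

theorem br_sub (x : P) (u v : Lin.V) : br x (u - v) = br x u - br x v := by
  funext i
  fin_cases i <;> simp [br, E] <;> ring

theorem br_smul (x : P) (l : ZMod 3) (v : Lin.V) : br x (l • v) = l • br x v := by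
  funext i
  fin_cases i <;> simp [br, E] <;> ring

theorem vec_smul_mem {H : Subgroup P} (l : ZMod 3) {v : Lin.V} (h : vec v ∈ H) : vec (l • v) ∈ H := by
  have h0 : l = 0 ∨ l = 1 ∨ l = 2 := by revert l; decide
  rcases h0 with rfl | rfl | rfl
  · rw [zero_smul, vec_zero]; exact one_mem _
  · rwa [one_smul]
  · have : (2 : ZMod 3) • v = v + v := by
      funext i; simp only [Pi.smul_apply, Pi.add_apply, smul_eq_mul]; ring
    rw [this, vec_add]; exact mul_mem h h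

/-- the trace of a subgroup of `P` on `A` -/
def tr (H : Subgroup P) : Submodule (ZMod 3) Lin.V where
  carrier := {v | vec v ∈ H}
  add_mem' := by
    intro u v (hu : vec u ∈ H) (hv : vec v ∈ H)
    show vec (u + v) ∈ H
    rw [vec_add]; exact mul_mem hu hv
  zero_mem' := by
    show vec 0 ∈ H
    rw [vec_zero]; exact one_mem _
  smul_mem' := fun c v hv => vec_smul_mem c hv

theorem mem_tr {H : Subgroup P} {v : Lin.V} : v ∈ tr H ↔ vec v ∈ H := Iff.rfl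

theorem card_tr (H : Subgroup P) : Nat.card (tr H) = Nat.card ↥(H ⊓ A) := by
  refine Nat.card_congr ⟨fun v => ⟨vec v.1, v.2, vec_mem _⟩, fun x => ⟨crd x.1, ?_⟩, ?_, ?_⟩
  · rw [mem_tr, vec_crd x.2.2]; exact x.2.1
  · intro v; exact Subtype.ext (crd_vec v.1)
  · intro x; exact Subtype.ext (vec_crd x.2.2)

/-- counting -/
theorem card_le {D1 : Subgroup P} {M : Type} [Finite M] (f : P → M)
    (hf : ∀ y ∈ D1, ∀ y' ∈ D1, f y = f y' → y⁻¹ * y' ∈ A) : Nat.card D1 ≤ Nat.card M * Nat.card ↥(D1 ⊓ A) := by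
  classical
  have hr : ∀ m : M, ∃ r ∈ D1, (∃ y ∈ D1, f y = m) → f r = m := by
    intro m
    by_cases h : ∃ y ∈ D1, f y = m
    · obtain ⟨y, hy, hm⟩ := h
      exact ⟨y, hy, fun _ => hm⟩
    · exact ⟨1, one_mem _, fun h' => absurd h' h⟩
  choose r hr1 hr2 using hr
  rw [← Nat.card_prod]
  have hr3 : ∀ y ∈ D1, (r (f y))⁻¹ * y ∈ A := fun y hy => hf _ (hr1 _) y hy (hr2 _ ⟨y, hy, rfl⟩)
  refine Nat.card_le_card_of_injective (fun y : D1 => (f y.1, (⟨(r (f y.1))⁻¹ * y.1,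
    ⟨D1.mul_mem (D1.inv_mem (hr1 _)) y.2, hr3 _ y.2⟩⟩ : ↥(D1 ⊓ A)))) ?_
  intro y y' h
  have h1 : f y.1 = f y'.1 := congrArg Prod.fst h
  have h2 : (r (f y.1))⁻¹ * y.1 = (r (f y'.1))⁻¹ * y'.1 := congrArg (fun t => (Prod.snd t).1) h
  rw [h1] at h2
  exact Subtype.ext (mul_left_cancel h2)

theorem N1 {C D : Submodule (ZMod 3) Lin.V} (hle : C ≤ D) (hcard : Nat.card D ≤ 3 * Nat.card C) {d0 : Lin.V}
    (h0 : d0 ∈ D) (h0' : d0 ∉ C) : ∀ d ∈ D, ∃ l : ZMod 3, d - l • d0 ∈ C := by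
  have hc : ∀ W : Submodule (ZMod 3) Lin.V, Nat.card W = 3 ^ Module.finrank (ZMod 3) W := by
    intro W
    rw [Module.natCard_eq_pow_finrank (K := ZMod 3), Nat.card_zmod]
  rw [hc, hc, ← pow_succ', Nat.pow_le_pow_iff_right (by norm_num)] at hcard
  have h1 : C < C ⊔ Submodule.span (ZMod 3) {d0} := by
    refine lt_of_le_of_ne le_sup_left fun e => h0' ?_
    rw [e]
    exact Submodule.mem_sup_right (Submodule.mem_span_singleton_self d0)
  have h2 := Submodule.finrank_lt_finrank_of_lt h1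
  have h3 : C ⊔ Submodule.span (ZMod 3) {d0} ≤ D :=
    sup_le hle (by rw [Submodule.span_singleton_le_iff_mem]; exact h0)
  have h4 : C ⊔ Submodule.span (ZMod 3) {d0} = D := Submodule.eq_of_le_of_finrank_le h3 (by omega)
  intro d hd
  rw [← h4, Submodule.mem_sup] at hd
  obtain ⟨y, hy, z, hz, rfl⟩ := hd
  obtain ⟨l, rfl⟩ := Submodule.mem_span_singleton.1 hz
  exact ⟨l, by rw [add_sub_cancel_right]; exact hy⟩

end Cfsg.Agent.H276.Co1
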